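import Cfsg.Agent.H778.HT.OutAbs
import Cfsg.Agent.H804.Ext.Frame
import Cfsg.Agent.CpAut.RgdUntw
import Cfsg.Agent.H79.Steinberg
import Cfsg.Agent.H295.FourOutChev
import Cfsg.Agent.Lib.FieldAutCard
import Cfsg.Agent.S1054
import Cfsg.Agent.S1055
import Cfsg.Agent.S1057
import Cfsg.Agent.S1059
import Cfsg.Agent.SmallSimple.S1000.PSLFacts
import Cfsg.Agent.S2121
import Cfsg.Agent.S2122
import Cfsg.Agent.S2123
import Cfsg.Agent.S2124
import Cfsg.Agent.S2125

/-!
# S4933, f.O.exc, piece G3: outer automorphisms of order `p ≥ 5` of `G₂`, `F₄`, `E₆`, `E₇`, `E₈` and characteristic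
polynomials (helper778)

* `out_untw` : `α ∉ Inn`, `α ^ p ∈ Inn`, `5 ≤ p`: there is a field automorphism `s ≠ 1`, `s ^ p = 1`, such that the
  characteristic polynomial of `α y` is the image under `s` of the one of `y`.
-/

set_option autoImplicit false
set_option linter.unusedSectionVars false

open Cfsg Polynomial
open scoped commutatorElement

namespace Cfsg.Agent.H778.HT

open CoxeterSystem Cfsg.Agent.ChevalleyStructure.CoxeterGeom Cfsg.Agent.Tits.Roots Cfsg.Agent.Tits.Core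
  Cfsg.Agent.Nodes.Reps Cfsg.Agent.Nodes.BNOf Cfsg.Agent.Nodes.OppDec Cfsg.Agent.Nodes.RGDChev
  Cfsg.Agent.KFacts.RgdAut Cfsg.Agent.KFacts.RgdDiag Cfsg.Agent.KFacts.RgdRigid
  Cfsg.Agent.KFacts.RgdField Cfsg.Agent.KFacts.RgdTau Cfsg.Agent.KFacts.RgdChevCoord
open Cfsg.Lie Cfsg.Agent.ChevalleyStructure Cfsg.Agent.ChevalleyStructure.Elts
  Cfsg.Agent.ChevalleyStructure.NPerm Cfsg.Agent.ChevalleyStructure.CoxeterGeomTypes
open Cfsg.Agent.CpAut.RgdUntw Cfsg.Agent.H79.FieldAuts Cfsg.Agent.H79.OutChev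

universe u

/-! ### characteristic polynomials -/

section cp

variable {ι : Type*} [Fintype ι] [DecidableEq ι] {F : Type u} [Field F] {G : Subgroup (GL ι F)}

/-- the characteristic polynomial of `θ y` is the image under `τ` of the one of `y` -/
def CP (θ : MulAut ↥G) (τ : F ≃+* F) : Prop :=
  ∀ y : ↥G, (((θ y : ↥G) : GL ι F) : Matrix ι ι F).charpoly =
    (((y : GL ι F) : Matrix ι ι F).charpoly).map (τ : F →+* F)

theorem CP.mul {θ θ' : MulAut ↥G} {τ τ' : F ≃+* F} (h : CP θ τ) (h' : CP θ' τ') : CP (θ * θ') (τ * τ') := by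
  intro y
  rw [MulAut.mul_apply, h, h', Polynomial.map_map]
  rfl

theorem CP.inv {θ : MulAut ↥G} {τ : F ≃+* F} (h : CP θ τ) : CP θ⁻¹ τ⁻¹ := by
  intro y
  have h1 := h (θ⁻¹ y)
  rw [MulAut.apply_inv_self] at h1
  rw [h1, Polynomial.map_map]
  have h2 : ((τ⁻¹ : F ≃+* F) : F →+* F).comp (τ : F →+* F) = RingHom.id F := by
    ext a
    exact τ.symm_apply_apply a
  rw [h2, Polynomial.map_id]

theorem charpoly_conj {C C' N : Matrix ι ι F} (h : C' * C = 1) : (C * N * C').charpoly = N.charpoly := by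
  rw [Matrix.charpoly_mul_comm, ← mul_assoc, h, one_mul]

theorem CP.of_matrix {θ : MulAut ↥G} {C C' : Matrix ι ι F}
    (h : ∀ y : ↥G, (((θ y : ↥G) : GL ι F) : Matrix ι ι F) = C * ((y : GL ι F) : Matrix ι ι F) * C') : CP θ 1 := by
  have h1 : C * C' = 1 := by
    have h2 := h 1
    rw [map_one] at h2
    have h3 : (((1 : ↥G) : GL ι F) : Matrix ι ι F) = 1 := rfl
    rw [h3, mul_one] at h2
    exact h2.symm
  have h1' : C' * C = 1 := mul_eq_one_comm.1 h1
  intro y
  rw [h, charpoly_conj h1']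
  exact (Polynomial.map_id).symm

theorem CP.conj (g : ↥G) : CP (MulAut.conj g) 1 :=
  CP.of_matrix (C := ((g : GL ι F) : Matrix ι ι F)) (C' := (((g : GL ι F)⁻¹ : GL ι F) : Matrix ι ι F)) fun _ => rfl

theorem CP.of_map {θ : MulAut ↥G} {τ : F ≃+* F}
    (h : ∀ y : ↥G, (((θ y : ↥G) : GL ι F) : Matrix ι ι F) = ((y : GL ι F) : Matrix ι ι F).map τ) : CP θ τ := by
  intro y
  rw [h]
  exact Matrix.charpoly_map _ (τ : F →+* F)

theorem CP.congr {θ : MulAut ↥G} {τ τ' : F ≃+* F} (h : CP θ τ) (e : τ = τ') : CP θ τ' := e ▸ h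

end cp

/-! ### the untwisted groups -/

section untw

variable {D : ChevalleyDatum} {l : ℕ} {M : CoxeterMatrix (Fin l)} (hp : IsType D l M) {F : Type} [Field F] [Finite F]

include hp in
/-- a standard field automorphism which is inner is trivial -/
theorem fld_inner [IsSimpleGroup ↥(D.group F)] (hna : ∃ a b : ↥(D.group F), a * b ≠ b * a) (τ : F ≃+* F)
    (g : ↥(D.group F)) (h : fld D τ = MulAut.conj g) : τ = 1 := by
  obtain ⟨r, hr⟩ := CharP.exists F
  have hrp : Fact r.Prime := ⟨CharP.char_is_prime F r⟩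
  have hW := finite_W hp (M.toCoxeterSystem)
  have R := rgd (K := F) hp M.toCoxeterSystem r
  have hG1 : RGD.Sup (XX D l F) {x | IsRoot M.toCoxeterSystem hp.isCartan x} = ⊤ := G1_eq_top hp M.toCoxeterSystem
  have hl : Nonempty (Fin l) := by
    rw [← Fin.pos_iff_nonempty]
    rcases Nat.eq_zero_or_pos l with h0 | h0
    · exfalso
      obtain ⟨a, b, hab⟩ := hna
      subst h0
      have h1 : (⊤ : Subgroup ↥(D.group F)) = ⊥ := by
        rw [← hG1, eq_bot_iff]
        refine RGD.Sup_le fun x hx => ?_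
        obtain ⟨w, i, -⟩ := hx
        exact i.elim0
      apply hab
      have h2 : ∀ g : ↥(D.group F), g = 1 := fun g => by
        have : g ∈ (⊤ : Subgroup ↥(D.group F)) := Subgroup.mem_top g
        rwa [h1, Subgroup.mem_bot] at this
      rw [h2 a, h2 b]
    · exact h0
  have hconn := KFacts.RgdLieCharP.conn_of_simple R hG1 (KFacts.RgdLieCharP.center_eq_bot hna)
  have C := coords (K := F) hp M.toCoxeterSystem r
  have H := coroots (K := F) hp M.toCoxeterSystem r
  have S := Cfsg.Agent.CpAut.RgdConj.tau_of_std (φ := fld D τ) (τ := τ) R hG1 C H hconn (by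
    intro v hv a
    obtain ⟨s, hs, rfl⟩ := (isRoot_iff hp M.toCoxeterSystem v).1 hv
    exact fld_xc hp τ hs a)
  rw [h] at S
  exact Cfsg.Agent.H804.Ext.tau_inner R hG1 C S

include hp in
theorem untw_aux [IsSimpleGroup ↥(D.group F)] (hna : ∃ a b : ↥(D.group F), a * b ≠ b * a) {m : ℕ}
    (hm : Nat.card (Out ↥(D.group F)) ∣ m * Nat.card (RingAut F)) {p : ℕ} [Fact p.Prime] (hpm : ¬ p ∣ m)
    (α : MulAut ↥(D.group F)) (h1 : ∃ g, α ^ p = MulAut.conj g) (h2 : ¬ ∃ g, α = MulAut.conj g) :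
    ∃ s : F ≃+* F, s ≠ 1 ∧ s ^ p = 1 ∧ CP α s := by
  have hD := hp.inList
  have hfin : Finite (RingAut F) := Finite.of_injective (fun σ : RingAut F => (σ : F → F)) DFunLike.coe_injective
  have hinj : ∀ (γ : RingAut F) (g : ↥(D.group F)), fieldHom hD F γ = MulAut.conj g → γ = 1 := by
    intro γ g h
    rw [← Cfsg.Agent.H295.FourOutChev.fld_eq hp] at h
    exact fld_inner hp hna γ g h
  obtain ⟨x, β, γ, hγ1, hγp, hα⟩ := exists_conj (Φ := fieldHom hD F) hm hinj hpm h1 h2
  obtain ⟨y, d, g, f, hd, hg, hf, hβ⟩ := Cfsg.Agent.H79.Steinberg.exists_fac_mul hD β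
  obtain ⟨σ, rfl⟩ := (isFieldAut_iff hD f).1 hf
  obtain ⟨π, -, hπ⟩ := isGraphAut_isGr hD hg
  have e1 : fieldHom hD F σ * fieldHom hD F γ = fieldHom hD F γ * fieldHom hD F σ := by
    have hc := isCyclic_ringAut F
    have h3 : σ * γ = γ * σ := (IsCyclic.commGroup (α := RingAut F)).mul_comm σ γ
    rw [← map_mul, h3, map_mul]
  have e2 := hπ.comm_field γ
  have e3 : β * fieldHom hD F γ * β⁻¹ = MulAut.conj y * (d * fieldHom hD F γ * d⁻¹) * (MulAut.conj y)⁻¹ := by
    rw [hβ]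
    calc MulAut.conj y * d * g * fieldHom hD F σ * fieldHom hD F γ * (MulAut.conj y * d * g * fieldHom hD F σ)⁻¹
        = MulAut.conj y * d * g * (fieldHom hD F σ * fieldHom hD F γ) * (MulAut.conj y * d * g * fieldHom hD F σ)⁻¹ := by
          group
      _ = MulAut.conj y * d * (g * fieldHom hD F γ) * (MulAut.conj y * d * g)⁻¹ := by rw [e1]; group
      _ = _ := by rw [e2]; group
  have hdC : CP d (1 : F ≃+* F) := by
    obtain ⟨χ, -, hχ⟩ := hd
    exact CP.of_matrix hχ
  have hγC : CP (fieldHom hD F γ) γ := by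
    rw [← Cfsg.Agent.H295.FourOutChev.fld_eq hp]
    exact CP.of_map fun y => fld_coe γ y
  refine ⟨γ, hγ1, hγp, ?_⟩
  rw [hα, e3]
  refine ((CP.conj x).mul (((CP.conj y).mul ((hdC.mul hγC).mul hdC.inv)).mul (CP.conj y).inv)).congr ?_
  have h0 : ((1 : F ≃+* F))⁻¹ = 1 := inv_one
  rw [h0]
  simp

end untw

/-- `G₂(2)` is not simple -/
theorem three_le_G2 {F : Type} [Field F] [Fintype F] [hs : IsSimpleGroup ↥(chevG2.group F)]
    (hna : ¬ IsMulCommutative ↥(chevG2.group F)) : 3 ≤ Fintype.card F := by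
  by_contra h3
  have h1 : 1 < Fintype.card F := Fintype.one_lt_card
  have h2 : Fintype.card F = 2 := by omega
  have hKf : Fintype (GaloisField 3 2) := Fintype.ofFinite _
  have hK : Fintype.card (GaloisField 3 2) = 9 := by
    rw [← Nat.card_eq_fintype_card, GaloisField.card 3 2 (by norm_num)]; norm_num
  obtain ⟨e⟩ := Cfsg.Agent.S1057.result (F := F) (K := GaloisField 3 2) h2 hK
  have h4 : commutator ↥(chevG2.group F) = ⊤ := by
    rcases (inferInstance : (commutator ↥(chevG2.group F)).Normal).eq_bot_or_eq_top with h5 | h5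
    · exfalso
      apply hna
      refine ⟨⟨fun a b => ?_⟩⟩
      have h6 : ⁅a, b⁆ ∈ commutator ↥(chevG2.group F) := by
        rw [commutator_def]
        exact Subgroup.commutator_mem_commutator (Subgroup.mem_top a) (Subgroup.mem_top b)
      rw [h5, Subgroup.mem_bot, commutatorElement_eq_one_iff_mul_comm] at h6
      exact h6
    · exact h5
  have h7 : Nat.card ↥(chevG2.group F) = 6048 := by
    rw [← Cfsg.Agent.SmallSimple.PSLFacts.card_psu_three_three hK, ← Nat.card_congr e.toEquiv, h4, Subgroup.card_top]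
  rw [Cfsg.Agent.S1059.result h2] at h7
  norm_num at h7

/-- **Piece G3, untwisted groups.** -/
theorem out_untw {D : ChevalleyDatum} (hD : D ∈ [chevG2, chevF4, chevE6, chevE7, chevE8]) {F : Type} [Field F]
    [Fintype F] [hs : IsSimpleGroup ↥(D.group F)] (hna : ¬ IsMulCommutative ↥(D.group F)) {p : ℕ} [Fact p.Prime]
    (hp5 : 5 ≤ p) (α : MulAut ↥(D.group F)) (h1 : ∃ g, α ^ p = MulAut.conj g) (h2 : ¬ ∃ g, α = MulAut.conj g) :
    ∃ s : F ≃+* F, s ≠ 1 ∧ s ^ p = 1 ∧ ∀ y : ↥(D.group F),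
      (((α y : ↥(D.group F)) : GL D.Idx F) : Matrix D.Idx D.Idx F).charpoly =
        (((y : GL D.Idx F) : Matrix D.Idx D.Idx F).charpoly).map (s : F →+* F) := by
  have hpp : p.Prime := Fact.out
  have hc : ∃ a b : ↥(D.group F), a * b ≠ b * a := by
    by_contra hcon
    push Not at hcon
    exact hna ⟨⟨hcon⟩⟩
  have hd6 : ∀ k : ℕ, k ∣ 6 → ¬ p ∣ k := by
    intro k hk h
    have h3 := Nat.le_of_dvd (by norm_num) (h.trans hk)
    have h4 : p ∣ 6 := h.trans hk
    interval_cases p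
    · exact absurd h4 (by norm_num)
    · exact absurd hpp (by norm_num)
  obtain ⟨r, hr⟩ := CharP.exists F
  have hrp : Fact r.Prime := ⟨CharP.char_is_prime F r⟩
  obtain ⟨f, -, hF⟩ := FiniteField.card F r
  have hf : 1 ≤ (f : ℕ) := f.pos
  have hRA : Nat.card (RingAut F) = f := Cfsg.Agent.Lib.FieldAutCard.card_ringAut hf hF
  simp only [List.mem_cons, List.not_mem_nil, or_false] at hD
  rcases hD with rfl | rfl | rfl | rfl | rfl
  · refine untw_aux (D := chevG2) (l := 2) (M := CoxeterMatrix.G₂) (by simp [IsType, typeList]) hc (m := 2) ?_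
      (hd6 2 (by norm_num)) α h1 h2
    rw [Cfsg.Agent.S2121.result r f hF (by rw [← hF]; exact three_le_G2 hna), hRA]
    split_ifs
    · exact dvd_rfl
    · exact Dvd.intro_left _ rfl
  · refine untw_aux (D := chevF4) (l := 4) (M := CoxeterMatrix.F₄) (by simp [IsType, typeList]) hc (m := 2) ?_
      (hd6 2 (by norm_num)) α h1 h2
    rw [Cfsg.Agent.S2122.result r f hF, hRA]
    exact mul_dvd_mul_right (Nat.gcd_dvd_left 2 _) _
  · refine untw_aux (D := chevE6) (l := 6) (M := CoxeterMatrix.E₆) (by simp [IsType, typeList]) hc (m := 6) ?_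
      (hd6 6 (by norm_num)) α h1 h2
    rw [Cfsg.Agent.S2123.result r f hF, hRA]
    exact mul_dvd_mul_right (mul_dvd_mul_left 2 (Nat.gcd_dvd_left 3 _)) _
  · refine untw_aux (D := chevE7) (l := 7) (M := CoxeterMatrix.E₇) (by simp [IsType, typeList]) hc (m := 2) ?_
      (hd6 2 (by norm_num)) α h1 h2
    rw [Cfsg.Agent.S2124.result r f hF, hRA]
    exact mul_dvd_mul_right (Nat.gcd_dvd_left 2 _) _
  · refine untw_aux (D := chevE8) (l := 8) (M := CoxeterMatrix.E₈) (by simp [IsType, typeList]) hc (m := 1) ?_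
      (hd6 1 (by norm_num)) α h1 h2
    rw [Cfsg.Agent.S2125.result r f hF, hRA, one_mul]

end Cfsg.Agent.H778.HT
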