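import Mathlib
import Cfsg.Prelude.Def_KGroupFacts

/-!
# Outer automorphisms of prime order and field automorphisms (abstract part; helper778, S4933)

`Φ : Γ →* MulAut Y` (the field automorphisms), `|Out Y| ∣ m |Γ|`, `Φ γ` inner only for `γ = 1`.

* `exists_conj` : `p ∤ m`: an automorphism `α ∉ Inn Y` with `α ^ p ∈ Inn Y` is `conj x * (β * Φ γ * β⁻¹)`, `γ ^ p = 1`, `γ ≠ 1`;
* `exists_mul` : `m ≤ p`: it is `conj x * Φ γ`.
-/

set_option autoImplicit false
set_option linter.unusedSectionVars false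

open Cfsg Subgroup
open scoped Pointwise

namespace Cfsg.Agent.H778.HT

/-- an element of order `p` is conjugate to an element of a subgroup of index prime to `p` -/
theorem conj_mem_of_index {O : Type*} [Group O] [Finite O] {A : Subgroup O} {p : ℕ} [Fact p.Prime]
    (hA : ¬ p ∣ A.index) {a : O} (ha : a ^ p = 1) : ∃ b : O, b * a * b⁻¹ ∈ A := by
  obtain ⟨Q⟩ : Nonempty (Sylow p A) := inferInstance
  have h1 : ¬ p ∣ ((Q : Subgroup A).map A.subtype).index := by
    rw [index_map_subtype]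
    intro hd
    rcases ((Fact.out : p.Prime).dvd_mul).1 hd with h2 | h2
    · exact Q.not_dvd_index h2
    · exact hA h2
  set Q' : Sylow p O := (Q.isPGroup'.map A.subtype).toSylow h1 with hQ'
  have hQA : (Q' : Subgroup O) ≤ A := by
    intro x hx
    have h2 : x ∈ (Q : Subgroup A).map A.subtype := hx
    obtain ⟨y, -, rfl⟩ := h2
    exact y.2
  have h2 : IsPGroup p (zpowers a) := by
    rw [IsPGroup.iff_card]
    have h3 : orderOf a ∣ p ^ 1 := by rw [pow_one]; exact orderOf_dvd_of_pow_eq_one ha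
    obtain ⟨k, -, hk⟩ := (Nat.dvd_prime_pow Fact.out).1 h3
    exact ⟨k, by rw [Nat.card_zpowers, hk]⟩
  obtain ⟨P, hP⟩ := h2.exists_le_sylow
  obtain ⟨b, hb⟩ := MulAction.exists_smul_eq O P Q'
  refine ⟨b, hQA ?_⟩
  rw [← hb]
  have h4 : a ∈ (P : Subgroup O) := hP (mem_zpowers a)
  have h5 : MulAut.conj b • a ∈ MulAut.conj b • (P : Subgroup O) := Subgroup.smul_mem_pointwise_smul a (MulAut.conj b) _ h4
  exact h5

/-- `n ≤ p`, `n ≡ 1`, `n > 0` -/
theorem eq_one_of_modEq {n p : ℕ} (h1 : n ≡ 1 [MOD p]) (hn : n ≤ p) (hp : 2 ≤ p) : n = 1 := by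
  rcases Nat.lt_or_ge n p with h | h
  · rw [Nat.ModEq, Nat.mod_eq_of_lt h, Nat.mod_eq_of_lt (by omega)] at h1
    exact h1
  · have h2 : n = p := le_antisymm hn h
    rw [Nat.ModEq, h2, Nat.mod_self, Nat.mod_eq_of_lt (by omega)] at h1
    omega

/-- a commutative subgroup of index at most `p`, prime to `p`, contains all elements of order `p` -/
theorem mem_of_index_le {O : Type*} [Group O] [Finite O] {A : Subgroup O} (hc : ∀ x ∈ A, ∀ y ∈ A, x * y = y * x) {p : ℕ}
    [Fact p.Prime] (hA : ¬ p ∣ A.index) (hle : A.index ≤ p) {a : O} (ha : a ^ p = 1) : a ∈ A := by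
  obtain ⟨Q⟩ : Nonempty (Sylow p A) := inferInstance
  have h1 : ¬ p ∣ ((Q : Subgroup A).map A.subtype).index := by
    rw [index_map_subtype]
    intro hd
    rcases ((Fact.out : p.Prime).dvd_mul).1 hd with h2 | h2
    · exact Q.not_dvd_index h2
    · exact hA h2
  set Q' : Sylow p O := (Q.isPGroup'.map A.subtype).toSylow h1 with hQ'
  have hQA : (Q' : Subgroup O) ≤ A := by
    intro x hx
    have h2 : x ∈ (Q : Subgroup A).map A.subtype := hx
    obtain ⟨y, -, rfl⟩ := h2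
    exact y.2
  have hAN : A ≤ normalizer ((Q' : Subgroup O) : Set O) := by
    intro x hx
    rw [Subgroup.mem_normalizer_iff]
    intro y
    constructor
    · intro hy
      have h3 : x * y * x⁻¹ = y := by rw [hc x hx y (hQA hy)]; group
      rw [h3]
      exact hy
    · intro hy
      have h4 := hQA hy
      have h3 : x⁻¹ * (x * y * x⁻¹) * x = x * y * x⁻¹ := by
        have h5 := hc x⁻¹ (inv_mem hx) _ h4
        rw [h5]; group
      have h6 : y = x * y * x⁻¹ := by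
        calc y = x⁻¹ * (x * y * x⁻¹) * x := by group
          _ = _ := h3
      rw [h6]
      exact hy
  have hn : Nat.card (Sylow p O) ≤ p := by
    rw [Q'.card_eq_index_normalizer]
    have h3 : (normalizer ((Q' : Subgroup O) : Set O)).index ∣ A.index := Subgroup.index_dvd_of_le hAN
    refine (Nat.le_of_dvd (Nat.pos_of_ne_zero ?_) h3).trans hle
    exact Subgroup.index_ne_zero_of_finite
  have h1' : Nat.card (Sylow p O) = 1 :=
    eq_one_of_modEq (card_sylow_modEq_one p O) hn (Fact.out : p.Prime).two_le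
  have hsub : Subsingleton (Sylow p O) := (Nat.card_eq_one_iff_unique.1 h1').1
  have h2 : IsPGroup p (zpowers a) := by
    rw [IsPGroup.iff_card]
    have h3 : orderOf a ∣ p ^ 1 := by rw [pow_one]; exact orderOf_dvd_of_pow_eq_one ha
    obtain ⟨k, -, hk⟩ := (Nat.dvd_prime_pow Fact.out).1 h3
    exact ⟨k, by rw [Nat.card_zpowers, hk]⟩
  obtain ⟨P, hP⟩ := h2.exists_le_sylow
  have h7 : P = Q' := Subsingleton.elim _ _
  exact hQA (h7 ▸ hP (mem_zpowers a))

section out

variable {Y : Type*} [Group Y] [Finite Y] {Γ : Type*} [Group Γ] [Finite Γ] (Φ : Γ →* MulAut Y)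

/-- the class in `Out Y` -/
abbrev cl : MulAut Y →* Out Y := QuotientGroup.mk' (Inn Y)

omit [Finite Y] in
theorem cl_eq_iff {x y : MulAut Y} (h : cl x = cl y) : ∃ g, x = MulAut.conj g * y := by
  have h0 : cl (x * y⁻¹) = 1 := by rw [map_mul, map_inv, h, mul_inv_cancel]
  have h1 : x * y⁻¹ ∈ Inn Y := (QuotientGroup.eq_one_iff _).1 h0
  obtain ⟨g, hg⟩ := h1
  exact ⟨g, by rw [hg]; group⟩

omit [Finite Y] in
theorem cl_conj (g : Y) : cl (MulAut.conj g) = 1 := (QuotientGroup.eq_one_iff _).2 ⟨g, rfl⟩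

/-- the image of `Γ` in `Out Y` -/
abbrev im : Subgroup (Out Y) := ((QuotientGroup.mk' (Inn Y)).comp Φ).range

variable {Φ} {p : ℕ} [Fact p.Prime] {m : ℕ} (hm : Nat.card (Out Y) ∣ m * Nat.card Γ)
  (hinj : ∀ (γ : Γ) (g : Y), Φ γ = MulAut.conj g → γ = 1)

include hinj in
omit [Finite Y] [Finite Γ] in
theorem comp_injective : Function.Injective ((QuotientGroup.mk' (Inn Y)).comp Φ) := by
  rw [injective_iff_map_eq_one]
  intro γ h
  obtain ⟨g, hg⟩ := cl_eq_iff (x := Φ γ) (y := 1) (by rw [map_one]; exact h)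
  exact hinj γ g (by rw [hg, mul_one])

include hm hinj in
theorem index_dvd : (im Φ).index ∣ m := by
  have h1 : Nat.card ↥(im Φ) = Nat.card Γ :=
    Nat.card_congr (MonoidHom.ofInjective (comp_injective hinj)).symm.toEquiv
  have h2 := (im Φ).index_mul_card
  rw [← h2, h1] at hm
  exact Nat.dvd_of_mul_dvd_mul_right Nat.card_pos hm

include hinj in
omit [Finite Y] [Finite Γ] [Fact p.Prime] in
/-- the field automorphism has order `p` -/
theorem pow_eq_one_of {α : MulAut Y} (h1 : ∃ g, α ^ p = MulAut.conj g) {γ : Γ} {b : MulAut Y}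
    (h : cl b * cl α * (cl b)⁻¹ = cl (Φ γ)) : γ ^ p = 1 := by
  obtain ⟨g, hg⟩ := h1
  have h2 : cl (Φ (γ ^ p)) = 1 := by
    rw [map_pow, map_pow, ← h, conj_pow, ← map_pow, hg, cl_conj, mul_one, mul_inv_cancel]
  obtain ⟨z, hz⟩ := cl_eq_iff (x := Φ (γ ^ p)) (y := 1) (by rw [map_one]; exact h2)
  exact hinj _ z (by rw [hz, mul_one])

include hm hinj in
/-- **Up to conjugacy an outer automorphism of order `p` is a field automorphism.** -/
theorem exists_conj (hpm : ¬ p ∣ m) {α : MulAut Y} (h1 : ∃ g, α ^ p = MulAut.conj g) (h2 : ¬ ∃ g, α = MulAut.conj g) :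
    ∃ (x : Y) (β : MulAut Y) (γ : Γ), γ ≠ 1 ∧ γ ^ p = 1 ∧ α = MulAut.conj x * (β * Φ γ * β⁻¹) := by
  have hfin : Finite (MulAut Y) := inferInstance
  have ha : (cl α) ^ p = 1 := by
    obtain ⟨g, hg⟩ := h1
    rw [← map_pow, hg]
    exact cl_conj g
  obtain ⟨b', hb⟩ := conj_mem_of_index (A := im Φ) (fun h => hpm (h.trans (index_dvd hm hinj))) ha
  obtain ⟨b, rfl⟩ := QuotientGroup.mk'_surjective (Inn Y) b'
  obtain ⟨γ, hγ⟩ := hb
  have hγ' : cl b * cl α * (cl b)⁻¹ = cl (Φ γ) := hγ.symm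
  have e1 : cl α = cl (b⁻¹ * Φ γ * b) := by
    rw [map_mul, map_mul, map_inv, ← hγ']; group
  obtain ⟨x, hx⟩ := cl_eq_iff e1
  refine ⟨x, b⁻¹, γ, ?_, pow_eq_one_of hinj h1 hγ', by rw [hx, inv_inv]⟩
  rintro rfl
  apply h2
  exact ⟨x, by rw [hx, map_one]; group⟩

include hm hinj in
/-- **An outer automorphism of order `p` is a field automorphism, modulo inner ones.** -/
theorem exists_mul (hΓ : ∀ a b : Γ, a * b = b * a) (hm0 : m ≠ 0) (hpm : ¬ p ∣ m) (hle : m ≤ p) {α : MulAut Y}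
    (h1 : ∃ g, α ^ p = MulAut.conj g) (h2 : ¬ ∃ g, α = MulAut.conj g) :
    ∃ (x : Y) (γ : Γ), γ ≠ 1 ∧ γ ^ p = 1 ∧ α = MulAut.conj x * Φ γ := by
  have hfin : Finite (MulAut Y) := inferInstance
  have ha : (cl α) ^ p = 1 := by
    obtain ⟨g, hg⟩ := h1
    rw [← map_pow, hg]
    exact cl_conj g
  have hmem := mem_of_index_le (A := im Φ) (by
    rintro _ ⟨x, rfl⟩ _ ⟨y, rfl⟩
    rw [← map_mul, ← map_mul, hΓ]) (fun h => hpm (h.trans (index_dvd hm hinj)))
    ((Nat.le_of_dvd (Nat.pos_of_ne_zero hm0) (index_dvd hm hinj)).trans hle) ha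
  obtain ⟨γ, hγ⟩ := hmem
  have hγ' : cl α = cl (Φ γ) := hγ.symm
  obtain ⟨x, hx⟩ := cl_eq_iff hγ'
  refine ⟨x, γ, ?_, pow_eq_one_of (b := 1) hinj h1 (by rw [map_one, one_mul, inv_one, mul_one]; exact hγ'), hx⟩
  rintro rfl
  apply h2
  exact ⟨x, by rw [hx, map_one, mul_one]⟩

end out

end Cfsg.Agent.H778.HT
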